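import Mathlib
import Cfsg.Prelude.Def_Local
import Cfsg.Prelude.Def_LocalEven

/-!
# S2930 team project "Pmin3" (helper38): definitions and package statements

A 3-minimal group `X` with `F*(X) ≃* A_n`, `n ≥ 5`, is `A_n` with `n = 6`, `n = 9` or
`n = 3 ^ a + 1`, `a ≥ 2`.

Everything on the alternating side is stated for `alternatingGroup (Fin n)`; an element
`g : ↥(alternatingGroup (Fin n))` acts through its coercion `(g : Equiv.Perm (Fin n))`.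
-/

set_option autoImplicit false

universe u

namespace Cfsg.Agent.Lib.Helper38.Pmin3

open Equiv

/-- the elements of `A_n` preserving the relation `ρ` -/
def relStab (n : ℕ) (ρ : Fin n → Fin n → Prop) : Subgroup ↥(alternatingGroup (Fin n)) where
  carrier := {g | ∀ x y : Fin n, ρ ((g : Perm (Fin n)) x) ((g : Perm (Fin n)) y) ↔ ρ x y}
  one_mem' := by intro x y; simp
  mul_mem' := by
    intro a b ha hb x y
    have h1 := ha ((b : Perm (Fin n)) x) ((b : Perm (Fin n)) y)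
    have h2 := hb x y
    simp only [Subgroup.coe_mul, Perm.mul_apply]
    rw [h1, h2]
  inv_mem' := by
    intro a ha x y
    have h1 := ha (((a : Perm (Fin n))⁻¹) x) (((a : Perm (Fin n))⁻¹) y)
    have e1 : ∀ w : Fin n, (a : Perm (Fin n)) (((a : Perm (Fin n))⁻¹) w) = w := fun w => by simp
    rw [e1, e1] at h1
    simp only [Subgroup.coe_inv]
    exact h1.symm

theorem mem_relStab {n : ℕ} {ρ : Fin n → Fin n → Prop} {g : ↥(alternatingGroup (Fin n))} :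
    g ∈ relStab n ρ ↔
      ∀ x y : Fin n, ρ ((g : Perm (Fin n)) x) ((g : Perm (Fin n)) y) ↔ ρ x y := Iff.rfl

/-- `x` and `y` lie in the same `S`-orbit -/
def SameOrb {n : ℕ} (S : Subgroup ↥(alternatingGroup (Fin n))) (x y : Fin n) : Prop :=
  ∃ g ∈ S, (g : Perm (Fin n)) x = y

/-- `S` is a 3-subgroup of `A_n` and `M` is a proper subgroup containing every proper subgroup
that contains `S`. -/
structure Ctx (n : ℕ) (S M : Subgroup ↥(alternatingGroup (Fin n))) : Prop where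
  p : IsPGroup 3 S
  sle : S ≤ M
  ne : M ≠ ⊤
  le : ∀ K : Subgroup ↥(alternatingGroup (Fin n)), S ≤ K → K ≠ ⊤ → K ≤ M

/-! ## Alternating side -/

/-- (CARD) orbits of a 3-group have 3-power size. -/
def LemCard : Prop :=
  ∀ (n : ℕ) (S : Subgroup ↥(alternatingGroup (Fin n))), IsPGroup 3 S →
    ∀ x : Fin n, ∃ k : ℕ, Set.ncard {y | SameOrb S x y} = 3 ^ k

/-- (R3) at most two orbits. -/
def LemR3 : Prop :=
  ∀ (n : ℕ) (S M : Subgroup ↥(alternatingGroup (Fin n))), 5 ≤ n → Ctx n S M →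
    ∀ x y z : Fin n, ¬ SameOrb S x y → ¬ SameOrb S x z → ¬ SameOrb S y z → False

/-- (RS) the stabilizer of a nontrivial `S`-invariant equivalence relation lies in `M`. -/
def LemRS : Prop :=
  ∀ (n : ℕ) (S M : Subgroup ↥(alternatingGroup (Fin n))), Ctx n S M →
    ∀ ρ : Fin n → Fin n → Prop, Equivalence ρ →
      (∀ g ∈ S, ∀ x y : Fin n, ρ ((g : Perm (Fin n)) x) ((g : Perm (Fin n)) y) ↔ ρ x y) →
      (∃ x y : Fin n, x ≠ y ∧ ρ x y) → (∃ x w : Fin n, ¬ ρ x w) → relStab n ρ ≤ M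

/-- (RS3) a 3-cycle inside a class preserves the relation. -/
def LemRS3 : Prop :=
  ∀ (n : ℕ) (ρ : Fin n → Fin n → Prop), Equivalence ρ →
    ∀ a b c : Fin n, a ≠ b → a ≠ c → b ≠ c → ρ a b → ρ a c →
      ∀ g : ↥(alternatingGroup (Fin n)), (g : Perm (Fin n)) = swap a b * swap a c →
        g ∈ relStab n ρ

/-- (SWAP) exchanging two classes of size 3 by an even permutation. -/
def LemSwap : Prop :=
  ∀ (n : ℕ) (ρ : Fin n → Fin n → Prop), Equivalence ρ →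
    ∀ u₁ u₂ u₃ v₁ v₂ v₃ : Fin n, u₁ ≠ u₂ → u₁ ≠ u₃ → u₂ ≠ u₃ → v₁ ≠ v₂ → v₁ ≠ v₃ → v₂ ≠ v₃ →
      (∀ y : Fin n, ρ u₁ y ↔ (y = u₁ ∨ y = u₂ ∨ y = u₃)) →
      (∀ y : Fin n, ρ v₁ y ↔ (y = v₁ ∨ y = v₂ ∨ y = v₃)) → ¬ ρ u₁ v₁ →
      ∃ h : ↥(alternatingGroup (Fin n)), h ∈ relStab n ρ ∧ (h : Perm (Fin n)) u₃ = v₃ ∧
        ∀ w : Fin n, w ≠ u₁ → w ≠ u₂ → w ≠ u₃ → w ≠ v₁ → w ≠ v₂ → w ≠ v₃ →
          (h : Perm (Fin n)) w = w

/-- conclusion of (BRK): an element preserving `ρ₁` (classes of size 3) which breaks the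
`ρ₂`-class of `x₀`. -/
def BrkC : Prop :=
  ∀ (n : ℕ) (ρ₁ ρ₂ : Fin n → Fin n → Prop), Equivalence ρ₁ → Equivalence ρ₂ →
    (∀ x : Fin n, Set.ncard {y | ρ₁ x y} = 3) →
    ∀ x₀ : Fin n, 7 ≤ Set.ncard {y | ρ₂ x₀ y} → (∃ w : Fin n, ¬ ρ₂ x₀ w) →
      ∃ h : ↥(alternatingGroup (Fin n)), h ∈ relStab n ρ₁ ∧
        ∃ u : Fin n, ρ₂ x₀ u ∧ ρ₂ x₀ ((h : Perm (Fin n)) u) ∧ ¬ ρ₂ x₀ ((h : Perm (Fin n)) x₀)

/-- (BRK) -/
def LemBrk : Prop := LemSwap → LemRS3 → BrkC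

/-- (PRIM) a transitive subgroup of `A_n` containing the 3-cycles inside the classes of `ρ`
and an element breaking the class of `x₀` is `A_n`. -/
def LemPrim : Prop :=
  ∀ (n : ℕ), 5 ≤ n → ∀ (M : Subgroup ↥(alternatingGroup (Fin n)))
    (ρ : Fin n → Fin n → Prop) (x₀ : Fin n), Equivalence ρ →
    (∀ x y : Fin n, ∃ g ∈ M, (g : Perm (Fin n)) x = y) →
    (∀ a b c : Fin n, a ≠ b → a ≠ c → b ≠ c → ρ a b → ρ a c →
      ∀ g : ↥(alternatingGroup (Fin n)), (g : Perm (Fin n)) = swap a b * swap a c → g ∈ M) →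
    (∀ x : Fin n, 3 ≤ Set.ncard {y | ρ x y}) →
    4 ≤ Set.ncard {y | ρ x₀ y} →
    (∀ y : Fin n, ¬ ρ x₀ y → n < 2 * (Set.ncard {w | ρ x₀ w} + Set.ncard {w | ρ y w})) →
    (∃ h ∈ M, ∃ u : Fin n, ρ x₀ u ∧ ρ x₀ ((h : Perm (Fin n)) u) ∧
      ¬ ρ x₀ ((h : Perm (Fin n)) x₀)) →
    M = ⊤

/-- (B3a) an element of `S` which is central of order 3 on the orbit of `x`. -/
def LemB3a : Prop :=
  ∀ (n : ℕ) (S : Subgroup ↥(alternatingGroup (Fin n))), IsPGroup 3 S →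
    ∀ x : Fin n, (∃ g ∈ S, (g : Perm (Fin n)) x ≠ x) →
      ∃ z ∈ S, (z : Perm (Fin n)) x ≠ x ∧
        (∀ w : Fin n, SameOrb S x w →
          (z : Perm (Fin n)) ((z : Perm (Fin n)) ((z : Perm (Fin n)) w)) = w) ∧
        (∀ g ∈ S, ∀ w : Fin n, SameOrb S x w →
          (g : Perm (Fin n)) ((z : Perm (Fin n)) w) = (z : Perm (Fin n)) ((g : Perm (Fin n)) w))

/-- conclusion of (B3): an `S`-invariant equivalence relation with all classes of size 3. -/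
def B3C : Prop :=
  ∀ (n : ℕ) (S : Subgroup ↥(alternatingGroup (Fin n))), IsPGroup 3 S →
    (∀ x : Fin n, ∃ g ∈ S, (g : Perm (Fin n)) x ≠ x) →
    ∃ ρ : Fin n → Fin n → Prop, Equivalence ρ ∧
      (∀ g ∈ S, ∀ x y : Fin n, ρ ((g : Perm (Fin n)) x) ((g : Perm (Fin n)) y) ↔ ρ x y) ∧
      ∀ x : Fin n, Set.ncard {y | ρ x y} = 3

/-- (B3) -/
def LemB3 : Prop := LemB3a → B3C

/-- (TOP) a transitive 3-group has an invariant equivalence relation with three classes. -/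
def LemTop : Prop :=
  ∀ (n : ℕ) (S : Subgroup ↥(alternatingGroup (Fin n))), 2 ≤ n → IsPGroup 3 S →
    (∀ x y : Fin n, SameOrb S x y) →
    ∃ ρ : Fin n → Fin n → Prop, Equivalence ρ ∧
      (∀ g ∈ S, ∀ x y : Fin n, ρ ((g : Perm (Fin n)) x) ((g : Perm (Fin n)) y) ↔ ρ x y) ∧
      ∀ x : Fin n, 3 * Set.ncard {y | ρ x y} = n

/-- (R1) one orbit: `n = 9`. -/
def LemR1 : Prop :=
  LemCard → LemTop → B3C → LemRS → LemRS3 → BrkC → LemPrim →
  ∀ (n : ℕ) (S M : Subgroup ↥(alternatingGroup (Fin n))), 5 ≤ n → Ctx n S M →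
    (∀ x y : Fin n, SameOrb S x y) → n = 9

/-- (R2) two orbits: `n = 6` or `n = 3 ^ a + 1`. -/
def LemR2 : Prop :=
  LemCard → B3C → LemRS → LemRS3 → BrkC → LemPrim →
  ∀ (n : ℕ) (S M : Subgroup ↥(alternatingGroup (Fin n))), 5 ≤ n → Ctx n S M →
    ∀ x y : Fin n, ¬ SameOrb S x y → (∀ w : Fin n, SameOrb S x w ∨ SameOrb S y w) →
      n = 6 ∨ ∃ a : ℕ, 2 ≤ a ∧ n = 3 ^ a + 1

/-- (C0) the context from 3-minimality. -/
def LemC0 : Prop :=
  ∀ (n : ℕ), Cfsg.IsPMinimal 3 ↥(alternatingGroup (Fin n)) →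
    ∃ S M : Subgroup ↥(alternatingGroup (Fin n)), Ctx n S M

/-- (TRANS) 3-minimality is invariant under isomorphism. -/
def LemTransport : Prop :=
  ∀ {X : Type u} [Group X] [Finite X] (n : ℕ),
    Nonempty (X ≃* ↥(alternatingGroup (Fin n))) → Cfsg.IsPMinimal 3 X →
    Cfsg.IsPMinimal 3 ↥(alternatingGroup (Fin n))

/-! ## `F*(X) = X` -/

/-- conclusion of (AUT): the fourth power of an automorphism of `A_n` is inner. -/
def AutC : Prop :=
  ∀ (n : ℕ), 5 ≤ n → ∀ ψ : MulAut ↥(alternatingGroup (Fin n)),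
    ∃ a : ↥(alternatingGroup (Fin n)), ∀ g : ↥(alternatingGroup (Fin n)),
      ψ (ψ (ψ (ψ g))) = a * g * a⁻¹

/-- (AUT6) the square of an automorphism of `A_6` maps 3-cycles to 3-cycles. -/
def LemAut6 : Prop :=
  ∀ ψ : MulAut ↥(alternatingGroup (Fin 6)), ∀ g : ↥(alternatingGroup (Fin 6)),
    Equiv.Perm.IsThreeCycle (g : Perm (Fin 6)) →
    Equiv.Perm.IsThreeCycle ((ψ (ψ g) : ↥(alternatingGroup (Fin 6))) : Perm (Fin 6))

/-- (AUT) -/
def LemAut : Prop := LemAut6 → AutC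

/-- (F1) Frattini: `L S = X`. -/
def LemF1 : Prop :=
  ∀ {X : Type u} [Group X] [Finite X] (L : Subgroup X) (n : ℕ), 5 ≤ n → L.Normal →
    Nonempty (↥L ≃* ↥(alternatingGroup (Fin n))) → Cfsg.IsPMinimal 3 X →
    ∀ S : Sylow 3 X, L ⊔ (S : Subgroup X) = ⊤

/-- (F2) fourth powers lie in `L`. -/
def LemF2 : Prop :=
  AutC →
  ∀ {X : Type u} [Group X] [Finite X] (L : Subgroup X) (n : ℕ), 5 ≤ n → L.Normal →
    Subgroup.centralizer (L : Set X) ≤ L →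
    Nonempty (↥L ≃* ↥(alternatingGroup (Fin n))) → ∀ x : X, x ^ 4 ∈ L

/-- the statement of S2930 -/
def S2930Stmt : Prop :=
  ∀ {X : Type u} [Group X] [Finite X], Cfsg.IsPMinimal 3 X → ∀ (n : ℕ), 5 ≤ n →
    Nonempty (↥(Cfsg.generalizedFittingSubgroup X) ≃* ↥(alternatingGroup (Fin n))) →
    Cfsg.generalizedFittingSubgroup X = ⊤ ∧
      (n = 6 ∨ n = 9 ∨ ∃ a : ℕ, 2 ≤ a ∧ n = 3 ^ a + 1)

end Cfsg.Agent.Lib.Helper38.Pmin3
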