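import Mathlib
import Cfsg.Agent.Lib.Helper38.Pmin3.Defs
import Cfsg.Agent.S2119

/-!
# S2930 package [AUT] (helper38)
-/

set_option autoImplicit false

namespace Cfsg.Agent.Lib.Helper38.Pmin3

open Equiv Equiv.Perm

theorem sign_pow_even (n : ℕ) (σ : Perm (Fin n)) (k : ℕ) : sign (σ ^ (2 * k)) = 1 := by
  rw [map_pow, pow_mul, Int.units_sq, one_pow]

/-- (AUT) the fourth power of an automorphism of `A_n` is inner. -/
theorem lemAut : LemAut := by
  intro h6 n hn ψ
  have h4 : 4 ≤ Fintype.card (Fin n) := by simp; omega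
  by_cases hn6 : n = 6
  · subst hn6
    obtain ⟨σ, hσ⟩ := Cfsg.Agent.S2119.exists_conj h4 (ψ * ψ) (fun g hg => h6 ψ g hg)
    refine ⟨⟨σ ^ 2, ?_⟩, fun g => ?_⟩
    · rw [Equiv.Perm.mem_alternatingGroup]
      exact sign_pow_even 6 σ 1
    · apply Subtype.ext
      have h1 := hσ g
      have h2 := hσ (ψ (ψ g))
      simp only [MulAut.mul_apply] at h1 h2
      rw [h2, h1]
      simp only [Subgroup.coe_mul, Subgroup.coe_inv, pow_two, mul_inv_rev, mul_assoc]
  · have hc : Fintype.card (Fin n) ≠ 6 := by simpa using hn6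
    obtain ⟨σ, hσ⟩ := Cfsg.Agent.S2119.exists_conj h4 ψ
      (fun g hg => Cfsg.Agent.S2119.aut_threeCycle hc ψ g hg)
    refine ⟨⟨σ ^ 4, ?_⟩, fun g => ?_⟩
    · rw [Equiv.Perm.mem_alternatingGroup]
      exact sign_pow_even n σ 2
    · apply Subtype.ext
      rw [hσ, hσ, hσ, hσ]
      simp only [Subgroup.coe_mul, Subgroup.coe_inv, mul_inv_rev, mul_assoc]
      have e4 : σ ^ 4 = σ * (σ * (σ * σ)) := by
        rw [pow_succ, pow_succ, pow_succ, pow_one]; simp only [mul_assoc]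
      rw [e4]
      simp only [mul_inv_rev, mul_assoc]

end Cfsg.Agent.Lib.Helper38.Pmin3
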