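import Mathlib
import Cfsg.Agent.Lib.Helper38.Pmin3.Defs

/-!
# S2930 package [BRK] (helper38)
-/

set_option autoImplicit false

namespace Cfsg.Agent.Lib.Helper38.Pmin3

open Equiv

/-- a class of size 3 listed from its base point -/
theorem class_three {n : ℕ} (ρ : Fin n → Fin n → Prop) (he : Equivalence ρ) (x : Fin n)
    (h : Set.ncard {y | ρ x y} = 3) :
    ∃ d d' : Fin n, x ≠ d ∧ x ≠ d' ∧ d ≠ d' ∧ ∀ y, ρ x y ↔ (y = x ∨ y = d ∨ y = d') := by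
  obtain ⟨p, q, r, hpq, hpr, hqr, hD⟩ := Set.ncard_eq_three.mp h
  have hx : x ∈ ({p, q, r} : Set (Fin n)) := by rw [← hD]; exact he.refl x
  have hmem : ∀ y, ρ x y ↔ (y = p ∨ y = q ∨ y = r) := by
    intro y
    have : y ∈ {y | ρ x y} ↔ y ∈ ({p, q, r} : Set (Fin n)) := by rw [hD]
    simpa using this
  simp only [Set.mem_insert_iff, Set.mem_singleton_iff] at hx
  rcases hx with rfl | rfl | rfl
  · exact ⟨q, r, hpq, hpr, hqr, hmem⟩
  · exact ⟨p, r, hpq.symm, hqr, hpr, fun y => by rw [hmem]; tauto⟩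
  · exact ⟨p, q, hpr.symm, hqr.symm, hpq, fun y => by rw [hmem]; tauto⟩

/-- a point of a large class outside a small finite set -/
theorem exists_class_notMem {n : ℕ} (P : Fin n → Prop) (F : Finset (Fin n))
    (h : F.card < Set.ncard {y | P y}) : ∃ u, P u ∧ u ∉ F := by
  by_contra hcon
  push Not at hcon
  have hsub : {y | P y} ⊆ (F : Set (Fin n)) := fun y hy => hcon y hy
  have := Set.ncard_le_ncard hsub (Finset.finite_toSet _)
  rw [Set.ncard_coe_finset] at this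
  omega

/-- (BRK) -/
theorem lemBrk : LemBrk := by
  intro hSwap hRS3 n ρ₁ ρ₂ he₁ he₂ h3 x₀ h7 hw
  obtain ⟨w, hw⟩ := hw
  classical
  obtain ⟨d, d', hxd, hxd', hdd', hD'⟩ := class_three ρ₁ he₁ x₀ (h3 x₀)
  have hρd : ρ₁ x₀ d := (hD' d).mpr (Or.inr (Or.inl rfl))
  have hρd' : ρ₁ x₀ d' := (hD' d').mpr (Or.inr (Or.inr rfl))
  by_cases hA : ρ₂ x₀ d ∧ ρ₂ x₀ d'
  · obtain ⟨hd2, hd2'⟩ := hA
    have hnw : ¬ ρ₁ x₀ w := by
      intro h
      rcases (hD' w).mp h with rfl | rfl | rfl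
      · exact hw (he₂.refl _)
      · exact hw hd2
      · exact hw hd2'
    obtain ⟨w', w'', hww', hww'', hw'w'', hW⟩ := class_three ρ₁ he₁ w (h3 w)
    have hρw' : ρ₁ w w' := (hW w').mpr (Or.inr (Or.inl rfl))
    have hU : ∀ y, ρ₁ d y ↔ (y = d ∨ y = d' ∨ y = x₀) := by
      intro y
      have : ρ₁ d y ↔ ρ₁ x₀ y :=
        ⟨fun h => he₁.trans hρd h, fun h => he₁.trans (he₁.symm hρd) h⟩
      rw [this, hD']; tauto
    have hV : ∀ y, ρ₁ w' y ↔ (y = w' ∨ y = w'' ∨ y = w) := by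
      intro y
      have : ρ₁ w' y ↔ ρ₁ w y :=
        ⟨fun h => he₁.trans hρw' h, fun h => he₁.trans (he₁.symm hρw') h⟩
      rw [this, hW]; tauto
    have hne : ¬ ρ₁ d w' := by
      intro h
      exact hnw (he₁.trans hρd (he₁.trans h (he₁.symm hρw')))
    obtain ⟨h, hh, hh3, hfix⟩ := hSwap n ρ₁ he₁ d d' x₀ w' w'' w hdd' hxd.symm hxd'.symm
      hw'w'' hww'.symm hww''.symm hU hV hne
    obtain ⟨u, hu2, hu⟩ := exists_class_notMem (fun y => ρ₂ x₀ y)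
      ({d, d', x₀, w', w'', w} : Finset (Fin n))
      (lt_of_le_of_lt Finset.card_le_six (by omega))
    simp only [Finset.mem_insert, Finset.mem_singleton, not_or] at hu
    refine ⟨h, hh, u, hu2, ?_, ?_⟩
    · rw [hfix u hu.1 hu.2.1 hu.2.2.1 hu.2.2.2.1 hu.2.2.2.2.1 hu.2.2.2.2.2]; exact hu2
    · rw [hh3]; exact hw
  · have hex : ∃ e e' : Fin n, x₀ ≠ e ∧ x₀ ≠ e' ∧ e ≠ e' ∧ ρ₁ x₀ e ∧ ρ₁ x₀ e' ∧ ¬ ρ₂ x₀ e := by
      by_cases h1 : ρ₂ x₀ d
      · have h2 : ¬ ρ₂ x₀ d' := fun h => hA ⟨h1, h⟩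
        exact ⟨d', d, hxd', hxd, hdd'.symm, hρd', hρd, h2⟩
      · exact ⟨d, d', hxd, hxd', hdd', hρd, hρd', h1⟩
    obtain ⟨e, e', hxe, hxe', hee', hρe, hρe', hne⟩ := hex
    have hmemA : swap x₀ e' * swap x₀ e ∈ alternatingGroup (Fin n) :=
      (Equiv.Perm.isThreeCycle_swap_mul_swap_same hxe' hxe hee'.symm).mem_alternatingGroup
    have hh := hRS3 n ρ₁ he₁ x₀ e' e hxe' hxe hee'.symm hρe' hρe ⟨_, hmemA⟩ rfl
    obtain ⟨u, hu2, hu⟩ := exists_class_notMem (fun y => ρ₂ x₀ y)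
      ({x₀, e, e'} : Finset (Fin n)) (lt_of_le_of_lt Finset.card_le_three (by omega))
    simp only [Finset.mem_insert, Finset.mem_singleton, not_or] at hu
    refine ⟨⟨_, hmemA⟩, hh, u, hu2, ?_, ?_⟩
    · have : (swap x₀ e' * swap x₀ e) u = u := by
        rw [Perm.mul_apply, swap_apply_of_ne_of_ne hu.1 hu.2.1,
          swap_apply_of_ne_of_ne hu.1 hu.2.2]
      show ρ₂ x₀ ((swap x₀ e' * swap x₀ e) u)
      rw [this]; exact hu2
    · have : (swap x₀ e' * swap x₀ e) x₀ = e := by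
        rw [Perm.mul_apply, swap_apply_left, swap_apply_of_ne_of_ne hxe.symm hee']
      show ¬ ρ₂ x₀ ((swap x₀ e' * swap x₀ e) x₀)
      rw [this]; exact hne

end Cfsg.Agent.Lib.Helper38.Pmin3
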