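import Mathlib
import Cfsg.Agent.Lib.Helper38.Pmin3.Defs

/-!
# S2930 package [CARD] (helper38)
-/

set_option autoImplicit false

namespace Cfsg.Agent.Lib.Helper38.Pmin3

open Equiv

theorem sameOrb_set_eq_orbit {n : ℕ} (S : Subgroup ↥(alternatingGroup (Fin n))) (x : Fin n) :
    {y | SameOrb S x y} = MulAction.orbit ↥S x := by
  ext y
  constructor
  · rintro ⟨g, hg, rfl⟩
    exact ⟨⟨g, hg⟩, rfl⟩
  · rintro ⟨g, rfl⟩
    exact ⟨g.1, g.2, rfl⟩

/-- (CARD) orbits of a 3-group have 3-power size. -/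
theorem lemCard : LemCard := by
  intro n S hS x
  obtain ⟨k, hk⟩ := hS.card_orbit (α := Fin n) x
  refine ⟨k, ?_⟩
  rw [sameOrb_set_eq_orbit, ← hk]
  exact (Nat.card_coe_set_eq _).symm

theorem sameOrb_refl {n : ℕ} (S : Subgroup ↥(alternatingGroup (Fin n))) (x : Fin n) :
    SameOrb S x x := ⟨1, S.one_mem, by simp⟩

theorem sameOrb_symm {n : ℕ} {S : Subgroup ↥(alternatingGroup (Fin n))} {x y : Fin n}
    (h : SameOrb S x y) : SameOrb S y x := by
  obtain ⟨g, hg, rfl⟩ := h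
  exact ⟨g⁻¹, S.inv_mem hg, by simp⟩

theorem sameOrb_trans {n : ℕ} {S : Subgroup ↥(alternatingGroup (Fin n))} {x y z : Fin n}
    (h : SameOrb S x y) (h' : SameOrb S y z) : SameOrb S x z := by
  obtain ⟨g, hg, rfl⟩ := h
  obtain ⟨g', hg', rfl⟩ := h'
  exact ⟨g' * g, S.mul_mem hg' hg, by simp⟩

theorem sameOrb_equivalence {n : ℕ} (S : Subgroup ↥(alternatingGroup (Fin n))) :
    Equivalence (SameOrb S) :=
  ⟨sameOrb_refl S, sameOrb_symm, sameOrb_trans⟩

theorem sameOrb_invariant {n : ℕ} (S : Subgroup ↥(alternatingGroup (Fin n))) :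
    ∀ g ∈ S, ∀ x y : Fin n,
      SameOrb S ((g : Perm (Fin n)) x) ((g : Perm (Fin n)) y) ↔ SameOrb S x y := by
  intro g hg x y
  have h1 : ∀ w : Fin n, SameOrb S w ((g : Perm (Fin n)) w) := fun w => ⟨g, hg, rfl⟩
  constructor
  · intro h
    exact sameOrb_trans (h1 x) (sameOrb_trans h (sameOrb_symm (h1 y)))
  · intro h
    exact sameOrb_trans (sameOrb_symm (h1 x)) (sameOrb_trans h (h1 y))

end Cfsg.Agent.Lib.Helper38.Pmin3
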