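import Mathlib
import Cfsg.Agent.Lib.Helper38.Pmin3.Defs
import Cfsg.Agent.S1265
import Cfsg.Agent.Lib.Helper22.Comp

/-!
# S2930 team project "Pmin3" (helper38): assembly from the packages
-/

set_option autoImplicit false

universe u

namespace Cfsg.Agent.Lib.Helper38.Pmin3

open Equiv

theorem s2930_of (hCard : LemCard) (hR3 : LemR3) (hRS : LemRS) (hRS3 : LemRS3)
    (hSwap : LemSwap) (hBrk : LemBrk) (hPrim : LemPrim) (hB3a : LemB3a) (hB3 : LemB3)
    (hTop : LemTop) (hR1 : LemR1) (hR2 : LemR2) (hC0 : LemC0) (hTr : LemTransport.{u})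
    (hAut6 : LemAut6) (hAut : LemAut) (hF1 : LemF1.{u}) (hF2 : LemF2.{u}) :
    S2930Stmt.{u} := by
  intro X _ _ hX n hn hF
  have hnorm : (Cfsg.generalizedFittingSubgroup X).Normal :=
    Cfsg.Agent.Lib.Helper22.generalizedFittingSubgroup_normal' X
  have hC := Cfsg.Agent.S1265.result (G := X)
  have autC : AutC := hAut hAut6
  have brkC : BrkC := hBrk hSwap hRS3
  have b3C : B3C := hB3 hB3a
  -- `F*(X) = X`
  have htop : Cfsg.generalizedFittingSubgroup X = ⊤ := by
    obtain ⟨S⟩ : Nonempty (Sylow 3 X) := inferInstance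
    have hsup := hF1 (Cfsg.generalizedFittingSubgroup X) n hn hnorm hF hX S
    have hx4 := hF2 autC (Cfsg.generalizedFittingSubgroup X) n hn hnorm hC hF
    have hSL : (S : Subgroup X) ≤ Cfsg.generalizedFittingSubgroup X := by
      intro x hx
      obtain ⟨k, hk⟩ := S.isPGroup' ⟨x, hx⟩
      have hk' : x ^ 3 ^ k = 1 := by
        have := congrArg Subtype.val hk
        simpa using this
      have hdvd : orderOf x ∣ 3 ^ k := orderOf_dvd_of_pow_eq_one hk'
      have hcop : Nat.Coprime 4 (orderOf x) :=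
        Nat.Coprime.coprime_dvd_right hdvd (Nat.Coprime.pow_right k (by decide))
      obtain ⟨m, hm⟩ := exists_pow_eq_self_of_coprime hcop
      rw [← hm]
      exact Subgroup.pow_mem _ (hx4 x) m
    rw [← hsup]
    exact (sup_eq_left.mpr hSL).symm
  refine ⟨htop, ?_⟩
  obtain ⟨e⟩ := hF
  have e' : X ≃* ↥(alternatingGroup (Fin n)) :=
    (Subgroup.topEquiv.symm.trans (MulEquiv.subgroupCongr htop.symm)).trans e
  have hY := hTr n ⟨e'⟩ hX
  obtain ⟨S, M, ctx⟩ := hC0 n hY
  by_cases htr : ∀ x y : Fin n, SameOrb S x y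
  · right; left
    exact hR1 hCard hTop b3C hRS hRS3 brkC hPrim n S M hn ctx htr
  · push Not at htr
    obtain ⟨x, y, hxy⟩ := htr
    by_cases h3 : ∃ w, ¬ SameOrb S x w ∧ ¬ SameOrb S y w
    · obtain ⟨w, hw1, hw2⟩ := h3
      exact (hR3 n S M hn ctx x y w hxy hw1 hw2).elim
    · have h3' : ∀ w, SameOrb S x w ∨ SameOrb S y w := fun w => by
        by_cases h : SameOrb S x w
        · exact Or.inl h
        · refine Or.inr ?_
          by_contra h'
          exact h3 ⟨w, h, h'⟩
      rcases hR2 hCard b3C hRS hRS3 brkC hPrim n S M hn ctx x y hxy h3' with h | h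
      · left; exact h
      · right; right; exact h

end Cfsg.Agent.Lib.Helper38.Pmin3
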