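import Mathlib
import Cfsg.Agent.Lib.Helper38.Pmin3.Defs
import Cfsg.Agent.Lib.Helper38.Pmin3.Card
import Cfsg.Agent.Lib.Helper38.Pmin3.Brk

/-!
# S2930 package [R1] (helper38)
-/

set_option autoImplicit false

namespace Cfsg.Agent.Lib.Helper38.Pmin3

open Equiv

/-- a relation whose classes all have `c` elements, `1 < c < n`, has its stabilizer in `M` -/
theorem relStab_le_of_class_card (hRS : LemRS) {n : ℕ}
    {S M : Subgroup ↥(alternatingGroup (Fin n))} (ctx : Ctx n S M)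
    (ρ : Fin n → Fin n → Prop) (he : Equivalence ρ)
    (inv : ∀ g ∈ S, ∀ x y : Fin n, ρ ((g : Perm (Fin n)) x) ((g : Perm (Fin n)) y) ↔ ρ x y)
    (x : Fin n) (h1 : 1 < Set.ncard {v | ρ x v}) (h2 : Set.ncard {v | ρ x v} < n) :
    relStab n ρ ≤ M ∧ ∃ w : Fin n, ¬ ρ x w := by
  classical
  have hout : ∃ w : Fin n, ¬ ρ x w := by
    by_contra hcon
    push Not at hcon
    have : {v | ρ x v} = Set.univ := by
      ext v
      simp only [Set.mem_univ, iff_true]
      exact hcon v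
    rw [this, Set.ncard_univ, Nat.card_fin] at h2
    omega
  refine ⟨hRS n S M ctx ρ he inv ?_ ?_, hout⟩
  · obtain ⟨u, hu1, hu2⟩ := exists_class_notMem (fun v => ρ x v) ({x} : Finset (Fin n))
      (by simp only [Finset.card_singleton]; omega)
    refine ⟨x, u, ?_, hu1⟩
    intro h
    exact hu2 (by simp [h])
  · obtain ⟨w, hw⟩ := hout
    exact ⟨x, w, hw⟩

/-- (R1) one orbit: `n = 9`. -/
theorem lemR1 : LemR1 := by
  intro hCard hTop hB3 hRS hRS3 hBrk hPrim n S M hn ctx htr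
  classical
  have x : Fin n := ⟨0, by omega⟩
  obtain ⟨a, ha⟩ := hCard n S ctx.p x
  have huniv : {w | SameOrb S x w} = Set.univ := by
    ext w
    simp only [Set.mem_univ, iff_true]
    exact htr x w
  rw [huniv, Set.ncard_univ, Nat.card_fin] at ha
  by_contra hne
  have ha3 : 3 ≤ a := by
    by_contra hlt
    have h2 : a ≤ 2 := by omega
    interval_cases a <;> simp at ha <;> omega
  have h27 : 27 ≤ n := by
    rw [ha]
    have := Nat.pow_le_pow_right (show 0 < 3 by norm_num) ha3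
    simpa using this
  obtain ⟨ρ₂, he₂, inv₂, hc₂⟩ := hTop n S (by omega) ctx.p htr
  have hnofix : ∀ w : Fin n, ∃ g ∈ S, (g : Perm (Fin n)) w ≠ w := by
    intro w
    obtain ⟨v, hv⟩ : ∃ v : Fin n, v ≠ w := by
      by_cases h0 : w = ⟨0, by omega⟩
      · refine ⟨⟨1, by omega⟩, ?_⟩
        rw [h0]
        intro h
        have := congrArg Fin.val h
        simp at this
      · exact ⟨⟨0, by omega⟩, fun h => h0 h.symm⟩
    obtain ⟨g, hg, hgv⟩ := htr w v
    exact ⟨g, hg, by rw [hgv]; exact hv⟩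
  obtain ⟨ρ₁, he₁, inv₁, h3⟩ := hB3 n S ctx.p hnofix
  have hc₂' : ∀ w : Fin n, 9 ≤ Set.ncard {v | ρ₂ w v} := by
    intro w
    have := hc₂ w
    omega
  have hc₂'' : ∀ w : Fin n, Set.ncard {v | ρ₂ w v} < n := by
    intro w
    have := hc₂ w
    omega
  have hM1 : relStab n ρ₁ ≤ M :=
    (relStab_le_of_class_card hRS ctx ρ₁ he₁ inv₁ x (by rw [h3 x]; omega)
      (by rw [h3 x]; omega)).1
  obtain ⟨hM2, hout⟩ := relStab_le_of_class_card hRS ctx ρ₂ he₂ inv₂ x
    (by have := hc₂' x; omega) (hc₂'' x)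
  obtain ⟨h, hh, u, hu1, hu2, hu3⟩ := hBrk n ρ₁ ρ₂ he₁ he₂ h3 x
    (by have := hc₂' x; omega) hout
  have htop : M = ⊤ := by
    refine hPrim n hn M ρ₂ x he₂ ?_ ?_ (fun w => by have := hc₂' w; omega)
      (by have := hc₂' x; omega) ?_ ⟨h, hM1 hh, u, hu1, hu2, hu3⟩
    · intro p q
      obtain ⟨g, hg, hgq⟩ := htr p q
      exact ⟨g, ctx.sle hg, hgq⟩
    · intro p q r hpq hpr hqr h1 h2 g hg
      exact hM2 (hRS3 n ρ₂ he₂ p q r hpq hpr hqr h1 h2 g hg)
    · intro y' _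
      have h1 := hc₂ x
      have h2 := hc₂ y'
      omega
  exact ctx.ne htop

end Cfsg.Agent.Lib.Helper38.Pmin3
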