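import Mathlib
import Cfsg.Agent.Lib.Helper38.Pmin3.Defs
import Cfsg.Agent.Lib.Helper38.Pmin3.Card
import Cfsg.Agent.Lib.Helper38.Pmin3.Brk

/-!
# S2930 package [R2] (helper38)
-/

set_option autoImplicit false

namespace Cfsg.Agent.Lib.Helper38.Pmin3

open Equiv

theorem sameOrb_class_eq {n : ℕ} {S : Subgroup ↥(alternatingGroup (Fin n))} {x w : Fin n}
    (h : SameOrb S x w) : {v | SameOrb S w v} = {v | SameOrb S x v} := by
  ext v
  exact ⟨fun h' => sameOrb_trans h h', fun h' => sameOrb_trans (sameOrb_symm h) h'⟩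

/-- the subgroup `M` is transitive as soon as it contains `S` and links the two orbits -/
theorem trans_of_link {n : ℕ} (S M : Subgroup ↥(alternatingGroup (Fin n))) (hSM : S ≤ M)
    (x y : Fin n) (hall : ∀ w : Fin n, SameOrb S x w ∨ SameOrb S y w)
    (h : ↥(alternatingGroup (Fin n))) (hh : h ∈ M)
    (hx : ¬ SameOrb S x ((h : Perm (Fin n)) x)) :
    ∀ p q : Fin n, ∃ g ∈ M, (g : Perm (Fin n)) p = q := by
  have hS : ∀ p q : Fin n, SameOrb S p q → ∃ g ∈ M, (g : Perm (Fin n)) p = q := by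
    rintro p q ⟨g, hg, rfl⟩
    exact ⟨g, hSM hg, rfl⟩
  have hyx' : SameOrb S y ((h : Perm (Fin n)) x) := (hall _).resolve_left hx
  -- every point is reachable from `x`
  have hfrom : ∀ w : Fin n, ∃ g ∈ M, (g : Perm (Fin n)) x = w := by
    intro w
    rcases hall w with hw | hw
    · exact hS x w hw
    · obtain ⟨g, hg, hgw⟩ := hS _ w (sameOrb_trans (sameOrb_symm hyx') hw)
      exact ⟨g * h, M.mul_mem hg hh, by simpa using hgw⟩
  intro p q
  obtain ⟨g₁, hg₁, h1⟩ := hfrom p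
  obtain ⟨g₂, hg₂, h2⟩ := hfrom q
  refine ⟨g₂ * g₁⁻¹, M.mul_mem hg₂ (M.inv_mem hg₁), ?_⟩
  rw [← h1, ← h2]
  simp

theorem r2_core (hB3 : B3C) (hRS : LemRS) (hRS3 : LemRS3) (hBrk : BrkC) (hPrim : LemPrim)
    (n : ℕ) (S M : Subgroup ↥(alternatingGroup (Fin n))) (hn : 5 ≤ n) (ctx : Ctx n S M)
    (x y : Fin n) (hxy : ¬ SameOrb S x y) (hall : ∀ w : Fin n, SameOrb S x w ∨ SameOrb S y w)
    (a b : ℕ) (ha : Set.ncard {w | SameOrb S x w} = 3 ^ a)
    (hb : Set.ncard {w | SameOrb S y w} = 3 ^ b) (hba : b ≤ a) :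
    n = 6 ∨ ∃ a : ℕ, 2 ≤ a ∧ n = 3 ^ a + 1 := by
  classical
  have hU : (Set.univ : Set (Fin n)) = {w | SameOrb S x w} ∪ {w | SameOrb S y w} := by
    ext w
    simp only [Set.mem_univ, Set.mem_union, Set.mem_setOf_eq, true_iff]
    exact hall w
  have hdisj : Disjoint {w | SameOrb S x w} {w | SameOrb S y w} :=
    Set.disjoint_left.mpr (fun w h1 h2 => hxy (sameOrb_trans h1 (sameOrb_symm h2)))
  have hn' : n = 3 ^ a + 3 ^ b := by
    have h1 := Set.ncard_union_eq hdisj (Set.toFinite _) (Set.toFinite _)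
    rw [← hU, Set.ncard_univ, Nat.card_fin, ha, hb] at h1
    exact h1
  rcases Nat.eq_zero_or_pos b with hb0 | hb1
  · right
    subst hb0
    refine ⟨a, ?_, by simpa using hn'⟩
    by_contra hlt
    have : a ≤ 1 := by omega
    have h3 : 3 ^ a ≤ 3 ^ 1 := Nat.pow_le_pow_right (by norm_num) this
    simp at hn'
    omega
  by_cases ha2 : a < 2
  · left
    have ha1 : a = 1 := by omega
    have hb1' : b = 1 := by omega
    subst ha1 hb1'
    simpa using hn'
  exfalso
  have ha2' : 2 ≤ a := by omega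
  have h9 : 9 ≤ 3 ^ a := by
    have := Nat.pow_le_pow_right (show 0 < 3 by norm_num) ha2'
    simpa using this
  have h3b : 3 ≤ 3 ^ b := by
    have := Nat.pow_le_pow_right (show 0 < 3 by norm_num) hb1
    simpa using this
  -- class sizes for `SameOrb S`
  have hcls : ∀ w : Fin n, Set.ncard {v | SameOrb S w v} = 3 ^ a ∨
      Set.ncard {v | SameOrb S w v} = 3 ^ b := by
    intro w
    rcases hall w with h | h
    · left; rw [sameOrb_class_eq h]; exact ha
    · right; rw [sameOrb_class_eq h]; exact hb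
  have hcls3 : ∀ w : Fin n, 3 ≤ Set.ncard {v | SameOrb S w v} := by
    intro w
    rcases hcls w with h | h <;> omega
  -- no fixed points
  have hmove : ∀ w : Fin n, ∃ v : Fin n, SameOrb S w v ∧ v ≠ w := by
    intro w
    obtain ⟨u, hu1, hu2⟩ := exists_class_notMem (fun v => SameOrb S w v) ({w} : Finset (Fin n))
      (by have := hcls3 w; simp only [Finset.card_singleton]; omega)
    exact ⟨u, hu1, by simpa using hu2⟩
  have hnofix : ∀ w : Fin n, ∃ g ∈ S, (g : Perm (Fin n)) w ≠ w := by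
    intro w
    obtain ⟨v, ⟨g, hg, rfl⟩, hv⟩ := hmove w
    exact ⟨g, hg, hv⟩
  obtain ⟨ρ₁, he₁, inv₁, h3⟩ := hB3 n S ctx.p hnofix
  have he₂ := sameOrb_equivalence S
  -- the two stabilizers lie in `M`
  have hM1 : relStab n ρ₁ ≤ M := by
    refine hRS n S M ctx ρ₁ he₁ inv₁ ?_ ?_
    · obtain ⟨d, d', hxd, hxd', hdd', hD⟩ := class_three ρ₁ he₁ x (h3 x)
      exact ⟨x, d, hxd, (hD d).mpr (Or.inr (Or.inl rfl))⟩
    · by_contra hcon
      push Not at hcon
      have : {v | ρ₁ x v} = Set.univ := by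
        ext v; simp only [Set.mem_setOf_eq, Set.mem_univ, iff_true]; exact hcon x v
      have h4 := h3 x
      rw [this, Set.ncard_univ, Nat.card_fin] at h4
      omega
  have hM2 : relStab n (SameOrb S) ≤ M := by
    refine hRS n S M ctx (SameOrb S) he₂ (sameOrb_invariant S) ?_ ⟨x, y, hxy⟩
    obtain ⟨v, hv1, hv2⟩ := hmove x
    exact ⟨x, v, hv2.symm, hv1⟩
  obtain ⟨h, hh, u, hu1, hu2, hu3⟩ := hBrk n ρ₁ (SameOrb S) he₁ he₂ h3 x
    (by rw [ha]; omega) ⟨y, hxy⟩
  have hhM : h ∈ M := hM1 hh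
  have htrans := trans_of_link S M ctx.sle x y hall h hhM hu3
  have htop : M = ⊤ := by
    refine hPrim n hn M (SameOrb S) x he₂ htrans ?_ hcls3 (by rw [ha]; omega) ?_
      ⟨h, hhM, u, hu1, hu2, hu3⟩
    · intro p q r hpq hpr hqr h1 h2 g hg
      exact hM2 (hRS3 n (SameOrb S) he₂ p q r hpq hpr hqr h1 h2 g hg)
    · intro y' hy'
      have hyy' : SameOrb S y y' := (hall y').resolve_left hy'
      rw [sameOrb_class_eq hyy', ha, hb]
      omega
  exact ctx.ne htop

/-- (R2) two orbits: `n = 6` or `n = 3 ^ a + 1`. -/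
theorem lemR2 : LemR2 := by
  intro hCard hB3 hRS hRS3 hBrk hPrim n S M hn ctx x y hxy hall
  obtain ⟨a, ha⟩ := hCard n S ctx.p x
  obtain ⟨b, hb⟩ := hCard n S ctx.p y
  by_cases hba : b ≤ a
  · exact r2_core hB3 hRS hRS3 hBrk hPrim n S M hn ctx x y hxy hall a b ha hb hba
  · exact r2_core hB3 hRS hRS3 hBrk hPrim n S M hn ctx y x
      (fun h => hxy (sameOrb_symm h)) (fun w => (hall w).symm) b a hb ha (by omega)

end Cfsg.Agent.Lib.Helper38.Pmin3
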